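import Mathlib
import Cfsg.Agent.Lib.VanP.Defs
import Cfsg.Agent.Lib.VanP.Basic
import Cfsg.Agent.Lib.VanP.Moved
import Cfsg.Agent.Lib.S4848.FixClass
import Cfsg.Agent.S0033
import Cfsg.Agent.Lib.Char.Basic

/-! Piece CM of S4848: moved characters and fixed-point-free action. -/

set_option autoImplicit false

namespace Cfsg.Agent.Lib.VanP

universe u

variable {G : Type u} [Group G] [Finite G]

section Aux

open Cfsg

/-- Character values on conjugate elements of `M` are equal. -/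
theorem CentralAux.conj_eq (M : Subgroup G) (θ : Cfsg.IrrCharacter M) (a b c : M)
    (h : b = c * a * c⁻¹) : (θ : M → ℂ) b = (θ : M → ℂ) a := by
  subst h
  exact Cfsg.Agent.Lib.Char.Basic.isClassFunction_of_isCharacter
    (Cfsg.Agent.Lib.Char.Basic.isCharacter_of_isIrrCharacter θ.2) a c

/-- Acting by an element of `M` on the left does not change fixing. -/
theorem CentralAux.fixes_mem_left (M : Subgroup G) [hM : M.Normal] (θ : Cfsg.IrrCharacter M)
    {v a : G} (ha : a ∈ M) (h : Fixes M (θ : M → ℂ) (a * v)) : Fixes M (θ : M → ℂ) v := by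
  intro x y hy
  have hy' : (⟨a * y * a⁻¹, hM.conj_mem y y.2 a⟩ : M) = ⟨a, ha⟩ * y * (⟨a, ha⟩ : M)⁻¹ := rfl
  have h1 : (θ : M → ℂ) ⟨a * y * a⁻¹, hM.conj_mem y y.2 a⟩ = (θ : M → ℂ) x := by
    apply h
    show a * (y : G) * a⁻¹ = a * v * x * (a * v)⁻¹
    rw [hy]
    group
  rw [← h1, hy']
  exact (CentralAux.conj_eq M θ y _ ⟨a, ha⟩ rfl).symm

/-- Acting by an element of `M` on the right does not change fixing. -/
theorem CentralAux.fixes_mem_right (M : Subgroup G) [hM : M.Normal] (θ : Cfsg.IrrCharacter M)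
    {v a : G} (ha : a ∈ M) (h : Fixes M (θ : M → ℂ) (v * a)) : Fixes M (θ : M → ℂ) v := by
  intro x y hy
  have h1 : (θ : M → ℂ) y = (θ : M → ℂ) ⟨a⁻¹ * x * a, by
      simpa using hM.conj_mem x x.2 a⁻¹⟩ := by
    apply h
    show (y : G) = v * a * (a⁻¹ * x * a) * (v * a)⁻¹
    rw [hy]
    group
  rw [h1]
  apply CentralAux.conj_eq M θ x _ ⟨a⁻¹, M.inv_mem ha⟩
  apply Subtype.ext
  simp

/-- Acting by an element centralizing `M` on the left does not change fixing. -/
theorem CentralAux.fixes_cent_left (M : Subgroup G) (θ : Cfsg.IrrCharacter M)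
    {v c : G} (hc : c ∈ Subgroup.centralizer (M : Set G)) (h : Fixes M (θ : M → ℂ) (c * v)) :
    Fixes M (θ : M → ℂ) v := by
  intro x y hy
  apply h
  show (y : G) = c * v * x * (c * v)⁻¹
  have h2 : c * (y : G) * c⁻¹ = y := by
    have := Subgroup.mem_centralizer_iff.1 hc (y : G) y.2
    rw [← this]
    group
  rw [mul_inv_rev]
  calc (y : G) = c * (y : G) * c⁻¹ := h2.symm
    _ = _ := by rw [hy]; group

end Aux


theorem fpf_of_moved_central {p : ℕ} [Fact p.Prime] (hv : HV p G) (M : Subgroup G) [M.Normal]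
    (hM : (Nat.card M).Coprime p) (u : G) (hu : ∃ k : ℕ, u ^ (p ^ k) = 1)
    (hcent : ∀ g : G, g * u * g⁻¹ * u⁻¹ ∈ M ⊔ Subgroup.centralizer (M : Set G))
    (θ : Cfsg.IrrCharacter M) (hθ : ¬ Fixes M (θ : M → ℂ) u) : ∀ m ∈ M, u * m = m * u → m = 1 := by
  intro m hm hum
  have hmoved : ∀ h : G, ¬ Fixes M (θ : M → ℂ) (h * (u * m) * h⁻¹) := by
    intro h hfix
    apply hθ
    have hk := hcent h
    obtain ⟨a, ha, c, hc, hac⟩ := Subgroup.mem_sup_of_normal_left.1 hk
    have hm' : h * m * h⁻¹ ∈ M := ‹M.Normal›.conj_mem m hm h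
    have heq : h * (u * m) * h⁻¹ = a * (c * (u * (h * m * h⁻¹))) := by
      have h1 : h * u * h⁻¹ = a * c * u := by
        rw [hac]
        group
      calc h * (u * m) * h⁻¹ = (h * u * h⁻¹) * (h * m * h⁻¹) := by group
        _ = _ := by rw [h1]; group
    rw [heq] at hfix
    have h2 := CentralAux.fixes_mem_left M θ ha hfix
    have h3 := CentralAux.fixes_cent_left M θ hc h2
    exact CentralAux.fixes_mem_right M θ hm' h3
  obtain ⟨χ, hχ⟩ := exists_irr_zero_of_moved M θ (u * m) hmoved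
  obtain ⟨k, -, hk⟩ := hv (u * m) ⟨χ, hχ⟩
  refine eq_one_of_pelt_mul hu (coprime_orderOf_of_mem M hM hm) hum ⟨k, ?_⟩
  rw [← hk, pow_orderOf_eq_one]

theorem abelian_of_central_move {p : ℕ} [Fact p.Prime] (hv : HV p G) (M : Subgroup G) (hmin : IsMinNormal M)
    (hM : (Nat.card M).Coprime p) (u : G) (hu : ∃ k : ℕ, u ^ (p ^ k) = 1) (hu1 : ∃ m ∈ M, u * m ≠ m * u)
    (hu2 : ∀ m ∈ M, u ^ p * m = m * u ^ p)
    (hcent : ∀ g : G, g * u * g⁻¹ * u⁻¹ ∈ M ⊔ Subgroup.centralizer (M : Set G)) :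
    ∀ a ∈ M, ∀ b ∈ M, a * b = b * a := by
  classical
  haveI := hmin.normal
  -- a moved character
  have hex : ∃ θ : Cfsg.IrrCharacter M, ¬ Fixes M (θ : M → ℂ) u := by
    by_contra hcon
    push Not at hcon
    obtain ⟨m, hm, hne⟩ := hu1
    refine hne (Cfsg.Agent.Lib.S4848.commute_of_forall_irr_fixed M hM u hu ?_ m hm)
    intro ϑ hϑ n
    exact hcon ⟨ϑ, hϑ⟩ n ⟨u * n * u⁻¹, hmin.normal.conj_mem n n.2 u⟩ rfl
  obtain ⟨θ, hθ⟩ := hex
  have hfpf := fpf_of_moved_central hv M hM u hu hcent θ hθ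
  -- the automorphism
  let φ : M ≃* M := (MulAut.conjNormal u : M ≃* M)
  have hφ : ∀ n : M, ((φ n : M) : G) = u * n * u⁻¹ := fun n => by
    show ((MulAut.conjNormal u n : M) : G) = _
    simp
  have hpow : ∀ (k : ℕ) (n : M), (((φ ^ k) n : M) : G) = u ^ k * n * (u ^ k)⁻¹ := by
    intro k
    induction k with
    | zero => intro n; simp
    | succ k ih =>
      intro n
      rw [pow_succ', MulAut.mul_apply, hφ, ih, pow_succ']
      group
  have hφp : φ ^ p = 1 := by
    ext n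
    rw [hpow]
    have := hu2 n n.2
    rw [this]
    simp
  have hφ1 : φ ≠ 1 := by
    intro h
    obtain ⟨m, hm, hne⟩ := hu1
    apply hne
    have h1 : ((φ ⟨m, hm⟩ : M) : G) = m := by rw [h]; rfl
    rw [hφ] at h1
    simp only at h1
    calc u * m = (u * m * u⁻¹) * u := by group
      _ = m * u := by rw [h1]
  have hord : orderOf φ = p := orderOf_eq_prime hφp hφ1
  have hnil : Group.IsNilpotent M := by
    refine Cfsg.Agent.S0033.result φ ?_ p (Fact.out) hord
    intro z hz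
    apply Subtype.ext
    apply hfpf z z.2
    have h1 : ((φ z : M) : G) = z := congrArg Subtype.val hz
    rw [hφ] at h1
    calc u * z = (u * z * u⁻¹) * u := by group
      _ = z * u := by rw [h1]
  -- the center of `M`
  have hnt : Nontrivial M := (Subgroup.nontrivial_iff_ne_bot M).2 hmin.ne_bot
  have hcne : Subgroup.center M ≠ ⊥ := by
    haveI := hnil
    haveI := hnt
    exact Group.IsNilpotent.center_ne_bot M
  let Z : Subgroup G := (Subgroup.center M).map M.subtype
  have hZle : Z ≤ M := Subgroup.map_subtype_le _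
  have hZn : Z.Normal := by
    constructor
    rintro _ ⟨z, hz, rfl⟩ g
    have hgz : g * (z : G) * g⁻¹ ∈ M := hmin.normal.conj_mem z z.2 g
    refine ⟨⟨_, hgz⟩, ?_, rfl⟩
    have hz : z ∈ Subgroup.center M := hz
    show (⟨_, hgz⟩ : M) ∈ Subgroup.center M
    rw [Subgroup.mem_center_iff] at hz ⊢
    intro y
    apply Subtype.ext
    have hy' : g⁻¹ * (y : G) * g ∈ M := by
      simpa using hmin.normal.conj_mem y y.2 g⁻¹
    have h2 := congrArg Subtype.val (hz ⟨_, hy'⟩)
    simp only [Subgroup.coe_mul] at h2 ⊢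
    calc (y : G) * (g * z * g⁻¹) = g * ((g⁻¹ * y * g) * z) * g⁻¹ := by group
      _ = g * (z * (g⁻¹ * y * g)) * g⁻¹ := by rw [h2]
      _ = _ := by group
  rcases hmin.min Z hZn hZle with h | h
  · exfalso
    obtain ⟨z, hz, hz1⟩ := (Subgroup.bot_or_exists_ne_one _).resolve_left hcne
    have h1 : (z : G) ∈ Z := ⟨z, hz, rfl⟩
    rw [h, Subgroup.mem_bot] at h1
    apply hz1
    exact Subtype.ext h1
  · intro a ha b hb
    have ha' : a ∈ Z := h ▸ ha
    obtain ⟨z, hz, rfl⟩ := ha'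
    have hz : z ∈ Subgroup.center M := hz
    rw [Subgroup.mem_center_iff] at hz
    have := congrArg Subtype.val (hz ⟨b, hb⟩)
    exact this.symm

end Cfsg.Agent.Lib.VanP
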