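import Mathlib
import Cfsg.Agent.Lib.VanP.Defs
import Cfsg.Agent.Lib.S4848.PZero

/-! Piece V4 of S4848: in a `p`-group every noncentral element is a vanishing element. -/

set_option autoImplicit false

namespace Cfsg.Agent.Lib.VanP

universe u

variable {G : Type u} [Group G] [Finite G]

/-- In a `p`-group every noncentral element is a vanishing element. -/
theorem exists_irr_zero_of_noncentral {p : ℕ} [Fact p.Prime] (hG : IsPGroup p G) (x : G)
    (hx : x ∉ Subgroup.center G) : ∃ χ : Cfsg.IrrCharacter G, (χ : G → ℂ) x = 0 :=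
  Cfsg.Agent.Lib.S4848.exists_irr_zero_of_not_mem_center hG x hx

end Cfsg.Agent.Lib.VanP
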