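import Cfsg.Agent.Lib.VanP.Defs
import Cfsg.Agent.Lib.VanP.Basic
import Cfsg.Agent.Lib.VanP.PGroup
import Cfsg.Agent.Lib.VanP.Quot
import Cfsg.Agent.Lib.VanP.Central
import Cfsg.Agent.Lib.S4848.FixClass

/-! Piece CB of S4848: the case where the normal `p`-complement is minimal normal.
The argument needs no case split on whether `M` is abelian. -/

set_option autoImplicit false
namespace Cfsg.Agent.Lib.VanP
universe u
variable {G : Type u} [Group G] [Finite G]

namespace CaseB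

/-- An element of `P` which is not central in `P` acts fixed point freely on `M`:
its image is noncentral in the `p`-group `G/M`, hence vanishes, hence so does every `x * y`. -/
theorem fpf_of_noncentral {p : ℕ} [Fact p.Prime] (hv : HV p G) (M : Subgroup G) (P : Sylow p G)
    [M.Normal] (hMc : (Nat.card M).Coprime p) (hMi : ∃ k : ℕ, M.index = p ^ k)
    {x v : G} (hx : x ∈ (P : Subgroup G)) (hv' : v ∈ (P : Subgroup G)) (hxv : x * v ≠ v * x) :
    ∀ y ∈ M, x * y = y * x → y = 1 := by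
  intro y hy hxy
  have hpg : IsPGroup p (G ⧸ M) := by
    obtain ⟨k, hk⟩ := hMi
    exact IsPGroup.of_card (n := k) (by rw [← hk]; rfl)
  have hncentral : ((x : G) : G ⧸ M) ∉ Subgroup.center (G ⧸ M) := by
    intro hc
    have h0 := (Subgroup.mem_center_iff.mp hc) (v : G ⧸ M)
    have h1 : (v * x)⁻¹ * (x * v) ∈ M := by
      rw [← QuotientGroup.eq, QuotientGroup.mk_mul, QuotientGroup.mk_mul]
      exact h0
    have h2 : (v * x)⁻¹ * (x * v) ∈ (P : Subgroup G) :=
      mul_mem (inv_mem (mul_mem hv' hx)) (mul_mem hx hv')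
    have h3 := eq_one_of_mem_inf M hMc P h1 h2
    exact hxv (inv_mul_eq_one.mp h3).symm
  obtain ⟨χ, hχ⟩ := exists_irr_zero_of_noncentral hpg _ hncentral
  have himg : ((x * y : G) : G ⧸ M) = (x : G ⧸ M) := by
    rw [QuotientGroup.eq]
    have : (x * y)⁻¹ * x = y⁻¹ := by group
    rw [this]
    exact inv_mem hy
  obtain ⟨χ', hχ'⟩ := inflate_zero M (x * y) ⟨χ, by rw [himg]; exact hχ⟩
  obtain ⟨m, -, hm⟩ := hv (x * y) ⟨χ', hχ'⟩
  exact eq_one_of_pelt_mul (pelt_of_mem_sylow P hx) (coprime_orderOf_of_mem M hMc hy) hxy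
    ⟨m, by rw [← hm]; exact pow_orderOf_eq_one _⟩

/-- An element of `Z(P)` moving `M` acts fixed point freely on `M`. -/
theorem fpf_of_central {p : ℕ} [Fact p.Prime] (hv : HV p G) (M : Subgroup G) (P : Sylow p G)
    [M.Normal] (hMc : (Nat.card M).Coprime p) (hMi : ∃ k : ℕ, M.index = p ^ k)
    {x : G} (hx : x ∈ (P : Subgroup G)) (hxc : ∀ v ∈ (P : Subgroup G), x * v = v * x)
    (hmoved : ∃ y ∈ M, x * y ≠ y * x) : ∀ y ∈ M, x * y = y * x → y = 1 := by
  have hu := pelt_of_mem_sylow P hx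
  have hcent : ∀ g : G, g * x * g⁻¹ * x⁻¹ ∈ M := by
    intro g
    obtain ⟨n, hn, x', hx', rfl⟩ := exists_mul_eq M hMi P g
    have hcomm : x' * x * x'⁻¹ = x := by
      rw [← hxc x' hx']; group
    have : n * x' * x * (n * x')⁻¹ * x⁻¹ = n * (x * n⁻¹ * x⁻¹) := by
      calc n * x' * x * (n * x')⁻¹ * x⁻¹ = n * (x' * x * x'⁻¹) * n⁻¹ * x⁻¹ := by group
        _ = n * x * n⁻¹ * x⁻¹ := by rw [hcomm]
        _ = n * (x * n⁻¹ * x⁻¹) := by group
    rw [this]
    exact M.mul_mem hn ((inferInstance : M.Normal).conj_mem _ (inv_mem hn) x)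
  have hmovedθ : ∃ θ : Cfsg.IrrCharacter M, ¬ Fixes M (θ : M → ℂ) x := by
    by_contra hall
    push Not at hall
    obtain ⟨y, hy, hne⟩ := hmoved
    refine hne (Cfsg.Agent.Lib.S4848.commute_of_forall_irr_fixed M hMc x hu (fun θ hθ n => ?_) y hy)
    exact hall ⟨θ, hθ⟩ n ⟨x * n * x⁻¹, (inferInstance : M.Normal).conj_mem n n.2 x⟩ rfl
  obtain ⟨θ, hθ⟩ := hmovedθ
  exact fpf_of_moved_central hv M hMc x hu (fun g => Subgroup.mem_sup_left (hcent g)) θ hθ

end CaseB

theorem case_b {p : ℕ} [Fact p.Prime] (hv : HV p G) (M : Subgroup G) (P : Sylow p G) [M.Normal]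
    (hmin : IsMinNormal M) (hMc : (Nat.card M).Coprime p) (hMi : ∃ k : ℕ, M.index = p ^ k)
    (hna : ∃ a b : G, a * b * a⁻¹ * b⁻¹ ∉ M) : Concl M (P : Subgroup G) := by
  have hne : ∃ y ∈ M, y ≠ 1 := by
    obtain ⟨y, hy⟩ := Subgroup.ne_bot_iff_exists_ne_one.mp hmin.ne_bot
    exact ⟨y, y.2, fun h => hy (Subtype.ext h)⟩
  refine ⟨?_, ?_, ?_⟩
  · intro z hz hzM g
    have hzP : ∀ v ∈ (P : Subgroup G), z * v = v * z := by
      by_contra h
      push Not at h
      obtain ⟨v, hv', hzv⟩ := h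
      obtain ⟨y, hy, hy1⟩ := hne
      exact hy1 (CaseB.fpf_of_noncentral hv M P hMc hMi hz hv' hzv y hy (hzM y hy))
    obtain ⟨n, hn, x, hx, rfl⟩ := exists_mul_eq M hMi P g
    rw [← mul_assoc, hzM n hn, mul_assoc, hzP x hx, mul_assoc]
  · obtain ⟨a, b, hab⟩ := hna
    obtain ⟨m1, hm1, x1, hx1, rfl⟩ := exists_mul_eq M hMi P a
    obtain ⟨m2, hm2, x2, hx2, rfl⟩ := exists_mul_eq M hMi P b
    have hx12 : x1 * x2 ≠ x2 * x1 := by
      intro hc
      apply hab
      rw [← QuotientGroup.eq_one_iff]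
      have h1 : ((m1 : G) : G ⧸ M) = 1 := (QuotientGroup.eq_one_iff _).2 hm1
      have h2 : ((m2 : G) : G ⧸ M) = 1 := (QuotientGroup.eq_one_iff _).2 hm2
      have h3 : ((x1 : G) : G ⧸ M) * (x2 : G ⧸ M) = (x2 : G ⧸ M) * (x1 : G ⧸ M) := by
        rw [← QuotientGroup.mk_mul, hc, QuotientGroup.mk_mul]
      simp only [QuotientGroup.mk_mul, QuotientGroup.mk_inv, h1, h2, one_mul, h3]
      group
    refine ⟨x1, hx1, ?_⟩
    by_contra h
    push Not at h
    obtain ⟨y, hy, hy1⟩ := hne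
    exact hy1 (CaseB.fpf_of_noncentral hv M P hMc hMi hx1 hx2 hx12 y hy (h y hy))
  · intro x hx hm
    by_cases hxc : ∀ v ∈ (P : Subgroup G), x * v = v * x
    · exact CaseB.fpf_of_central hv M P hMc hMi hx hxc hm
    · push Not at hxc
      obtain ⟨v, hv', hxv⟩ := hxc
      exact CaseB.fpf_of_noncentral hv M P hMc hMi hx hv' hxv

end Cfsg.Agent.Lib.VanP
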