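import Mathlib
import Cfsg.Agent.Lib.VanP.Defs
import Cfsg.Agent.Lib.S4848.FixClass

/-! Piece of S4848: a `p`-element fixing all irreducible characters of a normal `p'`-subgroup
centralizes it. -/

set_option autoImplicit false

namespace Cfsg.Agent.Lib.VanP

universe u

variable {G : Type u} [Group G] [Finite G]

theorem centralizes_of_fixes_all {p : ℕ} [Fact p.Prime] (M : Subgroup G) [hN : M.Normal]
    (hM : (Nat.card M).Coprime p) (u : G) (hu : ∃ k : ℕ, u ^ (p ^ k) = 1)
    (h : ∀ θ : Cfsg.IrrCharacter M, Fixes M (θ : M → ℂ) u) : ∀ m ∈ M, u * m = m * u :=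
  Cfsg.Agent.Lib.S4848.commute_of_forall_irr_fixed M hM u hu
    (fun θ hθ n => h ⟨θ, hθ⟩ n _ rfl)

end Cfsg.Agent.Lib.VanP
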